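import Cfsg.Agent.Lib.BG.AmbHall
import Cfsg.Agent.Lib.DihSyl.Basic
import Cfsg.Agent.Lib.Transfer.Cocycle
import Cfsg.Agent.S0221

/-! Package CB, 2-local part: `C(t) ∩ C(z) = ⟨t⟩ × D₁₆`.  See `plans/C3.md`. -/

set_option autoImplicit false
set_option linter.unusedSectionVars false

namespace CfsgLib.C3.CbA

open Cfsg CfsgLib.BG Subgroup CfsgLib.DihSyl

variable {G : Type*} [Group G] [Finite G]

theorem card_cent_conj (g a : G) : Nat.card 𝒞[g * a * g⁻¹] = Nat.card 𝒞[a] := by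
  rw [← cj_cent1, card_cj]

theorem card_mul_dvd {F E : Subgroup G} {t : G} (hF : F ≤ 𝒞(F)) (hE : E ≤ 𝒞(F) ⊓ 𝒞[t])
    (hs : ∀ f ∈ F, ∃ k ∈ 𝒞(F), k * t * k⁻¹ = f * t) :
    Nat.card E * Nat.card F ∣ Nat.card 𝒞(F) := by
  have c : ∀ {k f : G}, k ∈ 𝒞(F) → f ∈ F → k * f * k⁻¹ = f := fun hk hf => by
    rw [← mem_cent_iff.1 hk _ hf, mul_inv_cancel_right]
  let K : Subgroup G :=
    { carrier := {k | k ∈ 𝒞(F) ∧ k * t * k⁻¹ * t⁻¹ ∈ F}
      one_mem' := ⟨one_mem _, by simp⟩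
      mul_mem' := fun {a b} ha hb => ⟨mul_mem ha.1 hb.1, by
        have := mul_mem (by rw [c ha.1 hb.2]; exact hb.2 : a * (b * t * b⁻¹ * t⁻¹) * a⁻¹ ∈ F) ha.2
        convert this using 1; group⟩
      inv_mem' := fun {a} ha => ⟨inv_mem ha.1, by
        have h1 := c (inv_mem ha.1) (inv_mem ha.2)
        have := h1 ▸ inv_mem ha.2
        convert this using 1; group⟩ }
  let φ : K →* F := MonoidHom.mk' (fun k => ⟨k * t * (k : G)⁻¹ * t⁻¹, k.2.2⟩) fun a b => by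
    refine Subtype.ext ?_
    change (a * b) * t * ((a : G) * b)⁻¹ * t⁻¹ = a * t * (a : G)⁻¹ * t⁻¹ * (b * t * (b : G)⁻¹ * t⁻¹)
    rw [mem_cent_iff.1 (hF b.2.2) _ a.2.2, ← c a.2.1 b.2.2]
    group
  have hφ : φ.range = ⊤ := MonoidHom.range_eq_top.2 fun f => by
    obtain ⟨k, hk, e⟩ := hs f f.2
    exact ⟨⟨k, hk, by rw [e, mul_inv_cancel_right]; exact f.2⟩, Subtype.ext (by
      change k * t * k⁻¹ * t⁻¹ = f
      rw [e, mul_inv_cancel_right])⟩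
  have e1 : ∀ a ∈ E, a * t * a⁻¹ * t⁻¹ = 1 := fun a ha => by
    rw [mem_cent1.1 (mem_inf.1 (hE ha)).2]; group
  have EK : E ≤ K := fun a ha => ⟨(mem_inf.1 (hE ha)).1, by rw [e1 a ha]; exact one_mem _⟩
  have h1 : E.subgroupOf K ≤ φ.ker := fun a ha => Subtype.ext (e1 a ha)
  refine Dvd.dvd.trans ?_ (cardSg (H := K) fun k hk => hk.1)
  rw [← φ.ker.card_mul_index, index_ker, hφ, card_top,
    ← Nat.card_congr (subgroupOfEquivOfLe EK).toEquiv]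
  exact Nat.mul_dvd_mul_right (cardSg h1) _

/-- the 2-local configuration -/
structure St (t r s : G) (D : Subgroup G) : Prop where
  hG : ∀ M : Subgroup G, M.index ≠ 2
  tt : t * t = 1
  card : Nat.card 𝒞[t] = 672
  dih : IsDih D 8 r s
  mem : ∀ g, g ∈ 𝒞[t] ⊓ 𝒞[r ^ 4] ↔ g ∈ D ∨ ∃ c ∈ D, g = c * t
  tD : t ∉ D

namespace St

variable {t r s : G} {D : Subgroup G} (h : St t r s D)
include h

theorem z4 : r ^ (4 : ℤ) = r ^ 4 := zpow_natCast r 4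

theorem zz : r ^ 4 * r ^ 4 = 1 := h.z4 ▸ (h.dih.half (m := 4) rfl (by norm_num)).1

theorem z1 : r ^ 4 ≠ 1 := h.z4 ▸ (h.dih.half (m := 4) rfl (by norm_num)).2

theorem zD : r ^ 4 ∈ D := pow_mem h.dih.r_mem 4

theorem le : D ≤ 𝒞[t] ⊓ 𝒞[r ^ 4] := fun g hg => (h.mem g).2 (Or.inl hg)

theorem tT : t ∈ 𝒞[t] ⊓ 𝒞[r ^ 4] := (h.mem t).2 (Or.inr ⟨1, one_mem _, (one_mul t).symm⟩)

theorem comm {a : G} (ha : a ∈ D) : a * t = t * a := mem_cent1.1 (mem_inf.1 (h.le ha)).1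

theorem cardT : Nat.card ↥(𝒞[t] ⊓ 𝒞[r ^ 4]) = 32 := by
  rw [TwoGrp.card_eq_two_mul_of_mem_iff h.tD h.mem, h.dih.card]

theorem pT : IsPGroup 2 ↥(𝒞[t] ⊓ 𝒞[r ^ 4]) := IsPGroup.of_card (n := 5) h.cardT

theorem sylT : IsSylowOf 2 (𝒞[t] ⊓ 𝒞[r ^ 4]) 𝒞[t] := by
  refine (Sylow_iff' Nat.prime_two).2 ⟨inf_le_left, h.pT, fun e => ?_⟩
  have := Lagrange (inf_le_left : 𝒞[t] ⊓ 𝒞[r ^ 4] ≤ 𝒞[t])
  rw [h.cardT, h.card] at this
  omega

theorem split {a : G} (ha : a ∈ 𝒞[t] ⊓ 𝒞[r ^ 4]) :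
    ∃ c ∈ D, ∃ e, (e = 1 ∨ e = t) ∧ a = c * e ∧ a * a = c * c := by
  rcases (h.mem a).1 ha with e | ⟨c, hc, rfl⟩
  · exact ⟨a, e, 1, Or.inl rfl, (mul_one a).symm, rfl⟩
  · refine ⟨c, hc, t, Or.inr rfl, rfl, ?_⟩
    rw [mul_assoc, ← mul_assoc t, ← h.comm hc, mul_assoc, h.tt, mul_one]

theorem fix {g : G} (hg : g ∈ 𝒩(𝒞[t] ⊓ 𝒞[r ^ 4])) : g * r ^ 4 * g⁻¹ = r ^ 4 := by
  obtain ⟨c, hc, -, -, -, e⟩ := h.split (conj_mem_of_mem_norm hg (h.le h.dih.r_mem))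
  have e1 : g * r ^ 4 * g⁻¹ = c * c * (c * c) := by rw [← e, ← conj_pow]; simp only [pow_succ, pow_zero, one_mul, mul_assoc]
  have e2 : g * r ^ 4 * g⁻¹ ≠ 1 := fun e => h.z1 (by simpa using e)
  have e3 : c ∈ zpowers r := h.dih.mem_zpowers_of_sq_ne_one hc fun e => e2 (by rw [e1, e, one_mul])
  refine h.dih.eq_of_sq (e1 ▸ mul_mem (mul_mem e3 e3) (mul_mem e3 e3)) (pow_mem (mem_zpowers r) 4)
    (by rw [conj_mul, h.zz]; simp) h.zz e2 h.z1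

theorem inv_cases {a : G} (ha : a ∈ 𝒞[t] ⊓ 𝒞[r ^ 4]) (h2 : a * a = 1) :
    (a = 1 ∨ a = r ^ 4 ∨ a = t ∨ a = r ^ 4 * t) ∨
      ∃ (i : ℤ) (e : G), (e = 1 ∨ e = t) ∧ a = r ^ i * s * e := by
  obtain ⟨c, hc, e, he, rfl, e1⟩ := h.split ha
  obtain ⟨i, rfl | rfl⟩ := (h.dih.mem c).1 hc
  · left
    by_cases h1 : r ^ i = 1
    · rw [h1, one_mul]; tauto
    · rw [h.dih.eq_of_sq (zpow_mem_zpowers r i) (pow_mem (mem_zpowers r) 4) (e1 ▸ h2) h.zz h1 h.z1]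
      rcases he with rfl | rfl
      · simp
      · simp
  · exact Or.inr ⟨i, e, he, rfl⟩

theorem cen_cases {a : G} (ha : a ∈ 𝒞[t] ⊓ 𝒞[r ^ 4]) (h2 : a * a = 1)
    (hc : r * r * a = a * (r * r)) : a = 1 ∨ a = r ^ 4 ∨ a = t ∨ a = r ^ 4 * t := by
  refine (h.inv_cases ha h2).resolve_right ?_
  rintro ⟨i, e, he, rfl⟩
  have e1 : e * (r * r) = r * r * e := by
    rcases he with rfl | rfl
    · simp
    · exact (h.comm (mul_mem h.dih.r_mem h.dih.r_mem)).symm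
  rw [mul_assoc _ e, e1, ← mul_assoc, ← mul_assoc (r ^ i * s), mul_left_inj, ← zpow_two,
    h.dih.rpows_mul_rpow, ← mul_assoc, ← zpow_add, mul_left_inj, h.dih.eq_iff] at hc
  omega

theorem b1 {S Q A : Subgroup G} (hS : IsSylowOf 2 S ⊤) (hQ : Q ≤ S) (hi : Q.relIndex S ≤ 2)
    (hA : A ≤ S) (hc : Q ≤ 𝒞(A)) (h4 : Nat.card A = 4) (h2 : ∀ a ∈ A, a * a = 1) :
    (∃ g, g⁻¹ * t * g ∈ A) ∧ Nat.card S ≤ 64 := by
  have h0 := relIndex_pos Q S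
  have key : (∃ g, g⁻¹ * t * g ∈ Q ∧ ∀ a ∈ 𝒞[t] ⊓ 𝒞[r ^ 4], g⁻¹ * a * g ∈ S) ∧
      ∀ a ∈ S, a * a ∈ Q := by
    by_cases e : Q.relIndex S = 1
    · have e1 := relIndex_eq_one.1 e
      obtain ⟨g, -, hg⟩ := Sylow_Jsub Nat.prime_two hS le_top
        ((pigroup_singleton Nat.prime_two).2 h.pT)
      have := cj_le_iff.1 hg
      exact ⟨⟨g⁻¹, by rw [inv_inv]; exact e1 (this t h.tT), by rwa [inv_inv]⟩,
        fun a ha => e1 (mul_mem ha ha)⟩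
    · have e2 : Q.relIndex S = 2 := by omega
      exact ⟨Transfer.thompson_transfer_extremal h.hG
        (relIndex_top_right S ▸ Sylow_index Nat.prime_two hS) e2 h.tt h.pT inf_le_left,
        fun a ha => mul_self_mem_of_index_two e2 (⟨a, ha⟩ : S)⟩
  obtain ⟨⟨g, hg, hT⟩, hsq⟩ := key
  have e1 : cj g S ⊓ 𝒞[t] = 𝒞[t] ⊓ 𝒞[r ^ 4] := sub_pHall h.sylT
    (pigroupS inf_le_left (pigroup_cj.2 (pHall_pgroup hS)))
    (le_inf (fun a ha => mem_cj.2 (hT a ha)) inf_le_left) inf_le_right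
  have e2 : ∀ a ∈ S, a * (g⁻¹ * t * g) = g⁻¹ * t * g * a → g * a * g⁻¹ ∈ 𝒞[t] ⊓ 𝒞[r ^ 4] :=
    fun a ha e => e1 ▸ mem_inf.2 ⟨conj_mem_cj.2 ha, mem_cent1.2 (by
      calc _ = g * (a * (g⁻¹ * t * g)) * g⁻¹ := by group
        _ = _ := by rw [e]; group)⟩
  have e3 : g⁻¹ * t * g ∈ A := by
    by_contra hcon
    have h1 : (cj g A : Set G) ⊆ {1, r ^ 4, r ^ 4 * t} := fun b hb => by
      obtain ⟨a, ha, rfl⟩ := mem_cj'.1 hb
      have h3 := mem_cent_iff.1 (hc (hsq _ (hT r (h.le h.dih.r_mem)))) a ha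
      rcases h.cen_cases (e2 a (hA ha) (mem_cent_iff.1 (hc hg) a ha))
        (by rw [conj_mul, h2 a ha]; simp) (by
          calc _ = g * (g⁻¹ * r * g * (g⁻¹ * r * g) * a) * g⁻¹ := by group
            _ = _ := by rw [← h3]; group) with e | e | e | e
      · simp [e]
      · simp [e]
      · exact absurd (by rw [← e]; simpa [mul_assoc] using ha) hcon
      · simp [e]
    have h5 := Set.ncard_le_ncard h1
    have h6 := Set.ncard_insert_le (1 : G) {r ^ 4, r ^ 4 * t}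
    have h7 := Set.ncard_insert_le (r ^ 4) {r ^ 4 * t}
    rw [Set.ncard_singleton] at h7
    have h8 : (cj g A : Set G).ncard = 4 := by rw [← h4, ← card_cj g A]; rfl
    omega
  refine ⟨⟨g, e3⟩, ?_⟩
  have h5 := BG.card_le_of_le (cj_le_iff.2 fun a ha =>
    e2 a (hQ ha) (mem_cent_iff.1 (hc ha) _ e3).symm : cj g Q ≤ _)
  rw [card_cj, h.cardT] at h5
  rw [← Lagrange hQ]
  exact (Nat.mul_le_mul h5 hi).trans (by norm_num)

theorem cen_conj {g : G} (hg : g ∈ 𝒩(𝒞[t] ⊓ 𝒞[r ^ 4])) :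
    g * t * g⁻¹ = t ∨ g * t * g⁻¹ = r ^ 4 * t := by
  have h1 := mem_cent1.1 (mem_inf.1 (conj_mem_of_mem_norm' hg
    (h.le (mul_mem h.dih.r_mem h.dih.r_mem)))).1
  rcases h.cen_cases (conj_mem_of_mem_norm hg h.tT) (by rw [conj_mul, h.tt]; simp) (by
    calc _ = g * (g⁻¹ * (r * r) * g * t) * g⁻¹ := by group
      _ = _ := by rw [h1]; group) with e | e | e | e
  · exact absurd (by rw [show t = 1 by simpa using e]; exact one_mem _) h.tD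
  · rw [← h.fix hg, mul_left_inj, mul_right_inj] at e
    exact absurd (e ▸ h.zD) h.tD
  · exact Or.inl e
  · exact Or.inr e

theorem not_syl : ¬ IsSylowOf 2 (𝒞[t] ⊓ 𝒞[r ^ 4]) ⊤ := fun hS => by
  obtain ⟨g, hg, hT⟩ := Transfer.thompson_transfer_extremal h.hG
    (relIndex_top_right (𝒞[t] ⊓ 𝒞[r ^ 4]) ▸ Sylow_index Nat.prime_two hS)
    (TwoGrp.relIndex_eq_two_of_mem_iff h.tD h.mem) h.tt h.pT inf_le_left
  have hn : g⁻¹ ∈ 𝒩(𝒞[t] ⊓ 𝒞[r ^ 4]) :=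
    mem_norm_of_cj_le (cj_le_iff.2 fun a ha => by rw [inv_inv]; exact hT a ha)
  rcases h.cen_conj hn with e | e <;> rw [inv_inv] at e <;> rw [e] at hg
  · exact h.tD hg
  · exact h.tD ((mul_mem_cancel_left h.zD).1 hg)

theorem dvd64 : 64 ∣ Nat.card 𝒞[r ^ 4] := by
  have h1 : 2 ∣ (𝒞[t] ⊓ 𝒞[r ^ 4]).relIndex 𝒞[r ^ 4] := by
    by_contra e
    exact h.not_syl (Sylow_of_norm_le Nat.prime_two
      ((Sylow_iff' Nat.prime_two).2 ⟨inf_le_right, h.pT, e⟩) le_top fun g hg =>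
        mem_cent1.2 (mul_inv_eq_iff_eq_mul.1 (h.fix (mem_inf.1 hg).2)))
  rw [← Lagrange (inf_le_right : 𝒞[t] ⊓ 𝒞[r ^ 4] ≤ _), h.cardT]
  exact Nat.mul_dvd_mul_left 32 h1

theorem four : IsKleinFour ↥(zpowers (r ^ 4) ⊔ zpowers s) ∧ zpowers (r ^ 4) ⊔ zpowers s ≤ D ∧
    ∀ g, g ∈ zpowers (r ^ 4) ⊔ zpowers s ↔ g = 1 ∨ g = r ^ 4 ∨ g = s ∨ g = r ^ 4 * s := by
  have := h.dih.isKleinFour_sup (pow_mem (mem_zpowers r) 4) h.zz h.z1 0
  rwa [zpow_zero, one_mul] at this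

theorem false (h6 : ∀ (i : ℤ) (e : G), Odd i → (e = 1 ∨ e = t) →
      ¬ 64 ∣ Nat.card 𝒞[r ^ i * s * e])
    {k : G} (kt : k * t * k⁻¹ = t) (kF : k ∈ 𝒩(zpowers (r ^ 4) ⊔ zpowers s))
    (kz : k * r ^ 4 * k⁻¹ ≠ r ^ 4) : False := by
  obtain ⟨F4, FD, mF⟩ := h.four
  set F := zpowers (r ^ 4) ⊔ zpowers s
  have zF : r ^ 4 ∈ F := (mF _).2 (by simp)
  have h64 := h.dvd64
  have ht : ¬ 64 ∣ Nat.card 𝒞[t] := by rw [h.card]; norm_num
  have rt : ∀ j : ℤ, r ^ j * t * (r ^ j)⁻¹ = t := fun j => by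
    rw [h.comm (h.dih.rpow_mem j), mul_inv_cancel_right]
  have rs : ∀ j : ℤ, r ^ j * s * (r ^ j)⁻¹ = r ^ (2 * j) * s := fun j => by
    simpa using h.dih.rpow_conj_rpows j 0
  have k1 : k * r ^ 4 * k⁻¹ ≠ 1 := fun e => h.z1 (by simpa using e)
  obtain ⟨m, mt, mz⟩ : ∃ m, m * t * m⁻¹ = t ∧ m * r ^ 4 * m⁻¹ = s := by
    rcases (mF _).1 (conj_mem_of_mem_norm kF zF) with e | e | e | e
    · exact absurd e k1
    · exact absurd e kz
    · exact ⟨k, kt, e⟩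
    · refine ⟨(r ^ (2 : ℤ))⁻¹ * k, ?_, ?_⟩
      · calc _ = (r ^ (2 : ℤ))⁻¹ * (k * t * k⁻¹) * r ^ (2 : ℤ) := by group
          _ = _ := by rw [kt, mul_assoc, ← h.comm (h.dih.rpow_mem 2), inv_mul_cancel_left]
      · calc _ = (r ^ (2 : ℤ))⁻¹ * (k * r ^ 4 * k⁻¹) * r ^ (2 : ℤ) := by group
          _ = _ := by rw [e, ← h.z4, show (4 : ℤ) = 2 * 2 from rfl, ← rs 2]; group
  have hs : 64 ∣ Nat.card 𝒞[s] := by rwa [← mz, card_cent_conj]
  obtain ⟨g, hg, gT⟩ : ∃ g ∈ 𝒩(𝒞[t] ⊓ 𝒞[r ^ 4]), g ∉ 𝒞[t] ⊓ 𝒞[r ^ 4] := by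
    by_contra e
    push Not at e
    exact h.not_syl (Sylow_of_norm_le Nat.prime_two
      (pHall_self ((pigroup_singleton Nat.prime_two).2 h.pT)) le_top fun g hg =>
        e g (mem_inf.1 hg).2)
  have gz := h.fix hg
  have gt := (h.cen_conj hg).resolve_left fun e => gT (mem_inf.2
    ⟨mem_cent1.2 (mul_inv_eq_iff_eq_mul.1 e), mem_cent1.2 (mul_inv_eq_iff_eq_mul.1 gz)⟩)
  have hgs : 64 ∣ Nat.card 𝒞[g * s * g⁻¹] := by rwa [card_cent_conj]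
  obtain ⟨w, wz, ws, wt⟩ : ∃ w, w * r ^ 4 * w⁻¹ = r ^ 4 ∧ w * s * w⁻¹ = s ∧
      w * t * w⁻¹ = r ^ 4 * t := by
    rcases h.inv_cases (conj_mem_of_mem_norm hg (h.le h.dih.s_mem))
      (by rw [conj_mul, h.dih.ss]; simp) with (e | e | e | e) | ⟨i, e, he, e1⟩
    · exact absurd (by rw [show s = 1 by simpa using e]; exact one_mem _) h.dih.notMem
    · rw [← gz, mul_left_inj, mul_right_inj] at e
      exact absurd (e ▸ pow_mem (mem_zpowers r) 4) h.dih.notMem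
    · exact absurd (e ▸ hgs) ht
    · rw [← gt, mul_left_inj, mul_right_inj] at e
      exact absurd (e ▸ h.dih.s_mem) h.tD
    · rcases Int.even_or_odd i with ⟨j, rfl⟩ | hi
      · rw [← two_mul, ← rs] at e1
        rcases he with rfl | rfl
        · refine ⟨(r ^ j)⁻¹ * g, ?_, ?_, ?_⟩
          · calc _ = (r ^ j)⁻¹ * (g * r ^ 4 * g⁻¹) * r ^ j := by group
              _ = _ := by rw [gz]; group
          · calc _ = (r ^ j)⁻¹ * (g * s * g⁻¹) * r ^ j := by group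
              _ = _ := by rw [e1]; group
          · calc _ = (r ^ j)⁻¹ * (g * t * g⁻¹) * r ^ j := by group
              _ = _ := by rw [gt, mul_assoc, mul_assoc, ← h.comm (h.dih.rpow_mem j)]; group
        · rw [e1, ← rt j, conj_mul, card_cent_conj, ← mz, ← mt, conj_mul, card_cent_conj, ← gt,
            card_cent_conj] at hgs
          exact absurd hgs ht
      · exact absurd (e1 ▸ hgs) (h6 i e hi he)
  have FF : F ≤ 𝒞(F) := fun a ha => mem_cent_iff.2 fun b hb => TwoGrp.comm_of_isKleinFour F4 hb ha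
  have wF : w ∈ 𝒞(F) := by
    rw [centY, cent_zpowers, cent_zpowers]
    exact mem_inf.2 ⟨mem_cent1.2 (mul_inv_eq_iff_eq_mul.1 wz), mem_cent1.2 (mul_inv_eq_iff_eq_mul.1 ws)⟩
  have tF : t ∈ 𝒞(F) := mem_cent_iff.2 fun b hb => h.comm (FD hb)
  have mE := fun g => TwoGrp.mem_sup_zpowers_iff (cent_sub F tF) (h.tt ▸ one_mem F) (g := g)
  have cE : Nat.card ↥(F ⊔ zpowers t) = 8 := by
    rw [TwoGrp.card_sup_zpowers (cent_sub F tF) (h.tt ▸ one_mem F) fun e => h.tD (FD e),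
      F4.card_four]
  have EF : F ⊔ zpowers t ≤ 𝒞(F) := sup_le FF (zpowers_le.2 tF)
  have h32 := card_mul_dvd FF (le_inf EF (sup_le (sub_cent1.2 tF) (zpowers_le_cent1 t))) (by
    have h1 : k * w * k⁻¹ ∈ 𝒞(F) := conj_mem_of_mem_norm (norms_cent le_rfl kF) wF
    have h2 : k * w * k⁻¹ * t * (k * w * k⁻¹)⁻¹ = k * r ^ 4 * k⁻¹ * t := by
      calc _ = k * (w * (k⁻¹ * (k * t * k⁻¹) * k) * w⁻¹) * k⁻¹ := by rw [kt]; group
        _ = k * r ^ 4 * k⁻¹ * (k * t * k⁻¹) := by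
          rw [show k⁻¹ * (k * t * k⁻¹) * k = t by group, wt]; group
        _ = _ := by rw [kt]
    intro f hf
    rcases (TwoGrp.mem_iff_of_isKleinFour F4 (conj_mem_of_mem_norm kF zF) zF k1 h.z1 kz f).1 hf
      with rfl | rfl | rfl | rfl
    · exact ⟨1, one_mem _, by simp⟩
    · exact ⟨_, h1, h2⟩
    · exact ⟨_, wF, wt⟩
    · refine ⟨_, mul_mem wF h1, ?_⟩
      calc _ = w * (k * w * k⁻¹ * t * (k * w * k⁻¹)⁻¹) * w⁻¹ := by group
        _ = w * (k * r ^ 4 * k⁻¹) * w⁻¹ * (w * t * w⁻¹) := by rw [h2]; group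
        _ = _ := by
          rw [wt, ← mem_cent_iff.1 wF _ (conj_mem_of_mem_norm kF zF), mul_inv_cancel_right,
            ← mul_assoc])
  rw [cE, F4.card_four] at h32
  obtain ⟨Q, hQ, EQ⟩ := Sylow_superset Nat.prime_two EF
    ((pigroup_singleton Nat.prime_two).2 (IsPGroup.of_card (n := 3) cE))
  obtain ⟨S, hS, QS⟩ := Sylow_superset Nat.prime_two le_top (pHall_pgroup hQ)
  obtain ⟨U, hU, U4, U2⟩ := Cfsg.Agent.S0221.exists_normal_four (Sylow_isPGroup hS)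
    (E := (F ⊔ zpowers t).subgroupOf S)
    ((Nat.card_congr (subgroupOfEquivOfLe (EQ.trans QS)).toEquiv).trans cE) (fun e he => by
      refine Subtype.ext ?_
      change (e : G) ^ 2 = 1
      rw [pow_two]
      rcases (mE e).1 he with e1 | ⟨c, hc, e1⟩
      · exact TwoGrp.mul_self_of_isKleinFour F4 e1
      · rw [e1, mul_assoc, ← mul_assoc t, ← h.comm (FD hc), mul_assoc, h.tt, mul_one,
          TwoGrp.mul_self_of_isKleinFour F4 hc])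
  have hS64 := (h.b1 (Q := 𝒞(U).map S.subtype) (A := U.map S.subtype) hS (map_subtype_le _)
    (by
      rw [relIndex, subgroupOf, comap_map_eq_self_of_injective S.subtype_injective]
      have := Fact.mk Nat.prime_two
      simpa using PGroup.index_centralizer_le_of_normal (Sylow_isPGroup hS) 2 U U4)
    (map_subtype_le _) (by
      rintro _ ⟨a, ha, rfl⟩ _ ⟨b, hb, rfl⟩
      exact congrArg Subtype.val (ha b hb))
    (by rw [card_map_of_injective S.subtype_injective, U4]; rfl) (by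
      rintro _ ⟨a, ha, rfl⟩
      have := U2 a ha
      rw [pow_two] at this
      exact congrArg Subtype.val this)).2
  have hQ32 := Nat.le_of_dvd (cardG_pos Q) (dvd_card_pHall hQ (n := 2 ^ 5)
    (((isPiNat_prime Nat.prime_two).2 (Set.mem_singleton 2)).pow 5) h32)
  obtain ⟨⟨y, hy⟩, -⟩ := h.b1 hS QS (by
    have := Lagrange QS
    by_contra e
    have := Nat.mul_le_mul hQ32 (not_le.1 e)
    omega) ((le_sup_left.trans EQ).trans QS) (pHall_sub hQ) F4.card_four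
    fun a ha => TwoGrp.mul_self_of_isKleinFour F4 ha
  have h7 := card_cent_conj y⁻¹ t
  rw [inv_inv] at h7
  rcases (mF _).1 hy with e | e | e | e
  · exact h.tD (by rw [show t = 1 by simpa [mul_assoc] using congrArg (y * · * y⁻¹) e]; exact one_mem _)
  · exact ht (by rwa [← h7, e])
  · exact ht (by rwa [← h7, e])
  · exact ht (by rwa [← h7, e, ← h.z4, show (4 : ℤ) = 2 * 2 from rfl, ← rs 2, card_cent_conj])

end St

end CfsgLib.C3.CbA
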