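import Cfsg.Agent.Lib.BG.AmbCore
import Cfsg.Agent.Lib.FT3.Fpf
import Cfsg.Agent.Lib.Sect.Tools

/-! Package LOW, the 2-group part.  See `plans/C3.md`. -/

set_option autoImplicit false
set_option linter.unusedSectionVars false
set_option Elab.async false

namespace CfsgLib.C3.Low

open Cfsg CfsgLib.BG Subgroup CfsgLib.FT3
open CfsgLib.Sect (mem_zpowers_two four_cases exists_cmod two_mul_card_le relIndex_le_two two_le_relIndex
  card_zpowers_two mul_mem_of_le_two exists_norm_sq exists_notMem)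

local notation "⟪" y ", " q "⟫" => y * q * y⁻¹ * q⁻¹

variable {G : Type*} [Group G]

/-- the elements of `E` centralized by `A` modulo `K` -/
def cm (E K : Subgroup G) (A : Set G) : Subgroup G where
  carrier := {e | e ∈ E ∧ e ∈ 𝒩(K) ∧ ∀ g ∈ A, ⟪g, e⟫ ∈ K}
  one_mem' := ⟨one_mem _, one_mem _, fun g _ => by simp⟩
  mul_mem' := fun {a b} ha hb => ⟨mul_mem ha.1 hb.1, mul_mem ha.2.1 hb.2.1, fun g hg => by
    have := mul_mem (ha.2.2 g hg) (conj_mem_of_mem_norm ha.2.1 (hb.2.2 g hg))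
    convert this using 1
    group⟩
  inv_mem' := fun {a} ha => ⟨inv_mem ha.1, inv_mem ha.2.1, fun g hg => by
    have := conj_mem_of_mem_norm' ha.2.1 (inv_mem (ha.2.2 g hg))
    convert this using 1
    group⟩

variable [Finite G] {x z v a b d e g w y : G} {W E U A B K R : Subgroup G}

theorem cm_le {A : Set G} : cm E K A ≤ E := fun _ h => h.1

theorem norm_cm (h1 : y ∈ 𝒩(E)) (h2 : y ∈ 𝒩(K)) (h3 : y ∈ 𝒩(A)) : y ∈ 𝒩(cm E K A) :=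
  mem_norm_of_cj_le (cj_le_iff.2 fun e he => ⟨conj_mem_of_mem_norm h1 he.1,
    mul_mem (mul_mem h2 he.2.1) (inv_mem h2), fun g hg => by
      have := conj_mem_of_mem_norm h2 (he.2.2 _ (conj_mem_of_mem_norm' h3 hg))
      convert this using 1
      group⟩)

theorem exists_cm (hU : IsPGroup 2 U) (hA : A ≤ U) (nA : U ≤ 𝒩(A)) (nB : U ≤ 𝒩(B)) (h : ¬ A ≤ B) :
    ∃ a ∈ cm A B U, a ∉ B := by
  haveI := normal_subgroupOf_of_norm nA
  haveI := normal_subgroupOf_of_norm nB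
  obtain ⟨a, ha, h1, -, h2⟩ := exists_cmod hU (M := A.subgroupOf U) (N := B.subgroupOf U)
    fun e => h fun a ha => e (show (⟨a, hA ha⟩ : U) ∈ A.subgroupOf U from ha)
  refine ⟨a, ⟨ha, nB a.2, fun g hg => ?_⟩, h1⟩
  have : ((a : G) * g * (a : G)⁻¹ * g⁻¹)⁻¹ ∈ B := inv_mem (h2 ⟨g, hg⟩)
  convert this using 1
  group

theorem nz (h : g ∈ 𝒞[z]) : g ∈ 𝒩(zpowers z) := cent_sub _ (by rwa [cent_zpowers])

theorem cz (h : g ∈ 𝒞[z]) (ha : a ∈ zpowers z) : g * a * g⁻¹ = a := by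
  rw [← (mem_cent_iff.1 (cent_zpowers z ▸ h) a ha), mul_inv_cancel_right]

theorem comm_mod (hx : x ∈ 𝒞[z]) (hE : E ≤ 𝒞[z]) (x3 : x ^ 3 = 1) (xE : x ∈ 𝒩(E))
    (fpf : ∀ e ∈ E, ⟪x, e⟫ ∈ zpowers z → e ∈ zpowers z) (ha : a ∈ E) :
    ⟪a, (x * a * x⁻¹)⟫ ∈ zpowers z := by
  haveI : ((zpowers z).subgroupOf 𝒞[z]).Normal := normal_subgroupOf_of_norm fun _ => nz
  let π := QuotientGroup.mk' ((zpowers z).subgroupOf 𝒞[z])
  have hπ : ∀ u : 𝒞[z], π u = 1 ↔ (u : G) ∈ zpowers z := fun u => QuotientGroup.eq_one_iff u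
  have F : Fpf3 (π ⟨x, hx⟩) ((E.subgroupOf 𝒞[z]).map π) := by
    refine ⟨by rw [← map_pow, show (⟨x, hx⟩ : 𝒞[z]) ^ 3 = 1 from Subtype.ext x3, map_one],
      mem_norm_of_cj_le (cj_le_iff.2 ?_), eq_bot_iff.2 ?_⟩
    · rintro _ ⟨u, hu, rfl⟩
      exact ⟨⟨x, hx⟩ * u * ⟨x, hx⟩⁻¹, conj_mem_of_mem_norm xE hu, by simp⟩
    · rintro _ ⟨⟨u, hu, rfl⟩, hc⟩
      refine (hπ u).2 (fpf u hu ((hπ (⟨x, hx⟩ * u * ⟨x, hx⟩⁻¹ * u⁻¹)).1 ?_))
      rw [map_mul, map_mul, map_mul, map_inv, map_inv, ← mem_cent1.1 hc]; group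
  have := (F.comm (mem_map_of_mem π (show (⟨a, hE ha⟩ : 𝒞[z]) ∈ E.subgroupOf _ from ha))).eq
  refine (hπ (⟨a, hE ha⟩ * (⟨x, hx⟩ * ⟨a, hE ha⟩ * ⟨x, hx⟩⁻¹) * ⟨a, hE ha⟩⁻¹ *
    (⟨x, hx⟩ * ⟨a, hE ha⟩ * ⟨x, hx⟩⁻¹)⁻¹)).1 ?_
  simp only [map_mul, map_inv]
  rw [this]; group

/-- the configuration `⟨z⟩ < W < E ≤ U` with the element `x` of order three -/
structure Cf (x z : G) (W E U : Subgroup G) : Prop where
  x3 : x ^ 3 = 1
  two : IsPGroup 2 U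
  EU : E ≤ U
  WE : W ≤ E
  zW : z ∈ W
  z1 : z ≠ 1
  W2 : ∀ a ∈ W, a * a = 1
  W8 : Nat.card W = 8
  E32 : Nat.card E = 32
  cW : 𝒞(W) ≤ W
  nW : ∀ g ∈ U, g ∈ 𝒩(W) ↔ g ∈ E
  Uz : U ≤ 𝒞[z]
  xz : x ∈ 𝒞[z]
  xW : x ∈ 𝒩(W)
  xE : x ∈ 𝒩(E)
  xU : x ∈ 𝒩(U)
  fix : ∀ e ∈ E, e * x = x * e → e ∈ zpowers z
  md : ∀ R : Subgroup G, x ∈ 𝒩(R) → Nat.card R ≡ Nat.card ↥(R ⊓ 𝒞[x]) [MOD 3]

namespace Cf

variable (h : Cf x z W E U)
include h

theorem zz : z * z = 1 := h.W2 z h.zW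
theorem mz : a ∈ zpowers z ↔ a = 1 ∨ a = z := mem_zpowers_two h.zz
theorem z2 : Nat.card (zpowers z) = 2 := card_zpowers_two h.zz h.z1
theorem zE : z ∈ E := h.WE h.zW
theorem Ez : E ≤ 𝒞[z] := h.EU.trans h.Uz
theorem EW : E ≤ 𝒩(W) := fun g hg => (h.nW g (h.EU hg)).2 hg
theorem zle (zR : z ∈ R) : zpowers z ≤ R := zpowers_le.2 zR

theorem inf_eq (zR : z ∈ R) (RE : R ⊓ 𝒞[x] ≤ E) : R ⊓ 𝒞[x] = zpowers z :=
  le_antisymm (fun e he => h.fix e (RE he) (mem_cent1.1 he.2)) (zpowers_le.2 ⟨zR, cent1C.1 h.xz⟩)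

theorem cases (zR : z ∈ R) (RE : R ≤ E) (xR : x ∈ 𝒩(R)) :
    Nat.card R = 2 ∨ Nat.card R = 8 ∨ Nat.card R = 32 := by
  have h1 := h.md R xR
  have h2 := cardSg RE
  rw [h.inf_eq zR (inf_le_left.trans RE), h.z2, Nat.ModEq] at h1
  rw [h.E32] at h2
  have := Nat.le_of_dvd (by norm_num) h2
  generalize Nat.card R = n at *
  interval_cases n <;> simp_all

theorem le8 (zR : z ∈ R) (RA : R ≤ A) (AE : A ≤ E) (h8 : Nat.card A = 8) (xR : x ∈ 𝒩(R))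
    (hn : ¬ R ≤ zpowers z) : A ≤ R := by
  have h1 := two_mul_card_le (h.zle zR) hn
  have h2 := h.cases zR (RA.trans AE) xR
  rw [h.z2] at h1
  exact (eq_of_le_card RA (by omega)).ge

theorem le32 (zA : z ∈ A) (AR : A ≤ R) (RE : R ≤ E) (h8 : Nat.card A = 8) (xR : x ∈ 𝒩(R))
    (hn : ¬ R ≤ A) : E ≤ R := by
  have h1 := two_mul_card_le AR hn
  have h2 := h.cases (AR zA) RE xR
  have := h.E32
  exact (eq_of_le_card RE (by omega)).ge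

theorem not_EW : ¬ E ≤ W := fun e => by
  have := BG.card_le_of_le e
  rw [h.W8, h.E32] at this
  omega

theorem not_Wz : ¬ W ≤ zpowers z := fun e => by
  have := BG.card_le_of_le e
  rw [h.W8, h.z2] at this
  omega

theorem Wc (ha : a ∈ W) (hb : b ∈ W) : a * b = b * a := Sect.comm_of_sq h.W2 ha hb

theorem fixz (he : e ∈ E) (hc : ⟪x, e⟫ ∈ zpowers z) : e ∈ zpowers z := by
  rcases h.mz.1 hc with e1 | e1
  · exact h.fix e he (by rw [mul_inv_eq_one, mul_inv_eq_iff_eq_mul] at e1; exact e1.symm)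
  · have e0 : x * e * x⁻¹ = z * e := by rw [← e1]; group
    have e2 : ∀ y, x * (z * y) * x⁻¹ = z * (x * y * x⁻¹) := fun y => by
      rw [← mul_assoc, mem_cent1.1 h.xz]; group
    have e3 : x * (x * (x * e * x⁻¹) * x⁻¹) * x⁻¹ = x ^ 3 * e * (x ^ 3)⁻¹ := by rw [pow_three]; group
    rw [e0, e2, e0, e2, e2, e0, h.x3, ← mul_assoc, h.zz] at e3
    exact (h.z1 (by simpa using e3)).elim

theorem ZE (he : e ∈ E) (hc : e ∈ 𝒞(E)) : e ∈ zpowers z := by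
  by_contra hn
  have := h.le8 (R := E ⊓ 𝒞(E)) ⟨h.zE, sub_cent1.1 h.Ez⟩ ((inf_le_right.trans (centS h.WE)).trans h.cW) h.WE h.W8
    (mem_norm_of_cj_le (by rw [cj_inf, cj_cent, cj_eq_of_mem_norm h.xE])) fun e' => hn (e' ⟨he, hc⟩)
  exact h.not_EW ((centsC.1 (this.trans inf_le_right)).trans h.cW)

theorem cmW (hw : w ∈ W) (hg : g ∈ E) : ⟪g, w⟫ ∈ zpowers z := by
  obtain ⟨a, ha, h1⟩ := exists_cm (h.two.to_le h.EU) h.WE h.EW (fun _ hg => nz (h.Ez hg)) h.not_Wz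
  exact (h.le8 (R := cm W (zpowers z) E) ⟨h.zW, normG _ (mem_zpowers z), fun g hg => by
    rw [mem_cent1.1 (h.Ez hg)]; simp⟩ cm_le h.WE h.W8 (norm_cm h.xW (nz h.xz) h.xE) (fun e => h1 (e ha)) hw).2.2 g hg

theorem cmE (ha : a ∈ E) (hg : g ∈ E) : ⟪g, a⟫ ∈ zpowers z := by
  by_cases hW : a ∈ W
  · exact h.cmW hW hg
  have sw : ∀ {u v : G}, ⟪u, v⟫ ∈ zpowers z → ⟪v, u⟫ ∈ zpowers z := fun e => by
    convert inv_mem e using 1; group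
  have hb := conj_mem_of_mem_norm h.xE ha
  have hc := conj_mem_of_mem_norm h.xE hb
  have e3 : x * (x * (x * a * x⁻¹) * x⁻¹) * x⁻¹ = a := by
    calc _ = x ^ 3 * a * (x ^ 3)⁻¹ := by rw [pow_three]; group
      _ = a := by simp [h.x3]
  have key : ∀ u ∈ E, ⟪a, u⟫ ∈ zpowers z → u ∈ cm E (zpowers z) {a} := fun u hu e =>
    ⟨hu, nz (h.Ez hu), fun k hk => hk ▸ e⟩
  have cm3 := fun {u} => comm_mod (a := u) h.xz h.Ez h.x3 h.xE fun _ => h.fixz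
  have h1 : W ⊔ (zpowers a ⊔ zpowers (x * a * x⁻¹) ⊔ zpowers (x * (x * a * x⁻¹) * x⁻¹)) ≤
      cm E (zpowers z) {a} :=
    sup_le (fun w hw => key w (h.WE hw) (h.cmW hw ha)) (sup_le (sup_le (zpowers_le.2 (key a ha (by simp)))
      (zpowers_le.2 (key _ hb (cm3 ha)))) (zpowers_le.2 (key _ hc (sw (by simpa only [e3] using cm3 hc)))))
  refine sw ((h1 (h.le32 h.zW le_sup_left (h1.trans cm_le) h.W8 (mem_norm_of_cj_le ?_)
    (fun e => hW (e (mem_sup_right (mem_sup_left (mem_sup_left (mem_zpowers a)))))) hg)).2.2 a rfl)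
  rw [cj_sup, cj_sup, cj_sup, cj_zpowers, cj_zpowers, cj_zpowers, e3, cj_eq_of_mem_norm h.xW,
    sup_rotate (zpowers a)]

theorem sqE (ha : a ∈ E) : a * a ∈ zpowers z := by
  refine h.ZE (mul_mem ha ha) (mem_cent_iff.2 fun g hg => ?_)
  have h1 := h.cmE ha hg
  have h2 : ⟪g, a⟫ * ⟪g, a⟫ = 1 := by rcases h.mz.1 h1 with e | e <;> simp [e, h.zz]
  have h3 : ⟪g, (a * a)⟫ = ⟪g, a⟫ * (a * ⟪g, a⟫ * a⁻¹) := by group
  rwa [cz (h.Ez ha) h1, h2, mul_inv_eq_one, mul_inv_eq_iff_eq_mul] at h3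

theorem K0 (hg : g ∈ U) (hc : ∀ w ∈ W, ⟪g, w⟫ ∈ W) : g ∈ E :=
  (h.nW g hg).1 (mem_norm_of_cj_le (cj_le_iff.2 fun w hw => by simpa using mul_mem (hc w hw) hw))

theorem restrict : Cf x z W E (U ⊓ 𝒩(E)) :=
  { h with
    two := h.two.to_le inf_le_left
    EU := le_inf h.EU (normG E)
    nW := fun g hg => h.nW g hg.1
    Uz := inf_le_left.trans h.Uz
    xU := mem_norm_of_cj_le (by rw [cj_inf, cj_norm, cj_eq_of_mem_norm h.xU, cj_eq_of_mem_norm h.xE]) }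

theorem zD : z ∈ cm E (zpowers z) U :=
  ⟨h.zE, normG _ (mem_zpowers z), fun g hg => by rw [mem_cent1.1 (h.Uz hg)]; simp⟩

theorem xD : x ∈ 𝒩(cm E (zpowers z) U) := norm_cm h.xE (nz h.xz) h.xU

theorem nD : U ≤ 𝒩(cm E (zpowers z) U) := fun g hg => mem_norm_of_cj_le (cj_le_iff.2 fun d hd => by
  simpa using mul_mem (h.zle h.zD (hd.2.2 g hg)) hd)

variable (hn : U ≤ 𝒩(E)) (hne : ¬ U ≤ E)
include hne

theorem not_WD : ¬ W ≤ cm E (zpowers z) U := fun e =>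
  hne fun _ hg => h.K0 hg fun _ hw => h.zle h.zW ((e hw).2.2 _ hg)

theorem DW (hd : d ∈ cm E (zpowers z) U) (hw : d ∈ W) : d ∈ zpowers z := by
  by_contra h1
  exact h.not_WD hne ((h.le8 (R := W ⊓ cm E (zpowers z) U) ⟨h.zW, h.zD⟩ inf_le_left h.WE h.W8
    (mem_norm_of_cj_le (by rw [cj_inf, cj_eq_of_mem_norm h.xW, cj_eq_of_mem_norm h.xD]))
    fun e => h1 (e ⟨hw, hd⟩)).trans inf_le_right)

include hn

theorem not_Dz : ¬ cm E (zpowers z) U ≤ zpowers z := by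
  obtain ⟨a, ha, h1⟩ := exists_cm h.two h.EU hn (fun _ hg => nz (h.Uz hg))
    fun e => h.not_EW (e.trans (h.zle h.zW))
  exact fun e => h1 (e ha)

theorem D8 : Nat.card (cm E (zpowers z) U) = 8 := by
  have h1 := two_mul_card_le (h.zle h.zD) (h.not_Dz hn hne)
  have h2 := two_mul_card_le cm_le fun e => h.not_WD hne (h.WE.trans e)
  have := h.cases h.zD cm_le h.xD
  rw [h.z2] at h1
  rw [h.E32] at h2
  omega

theorem not_DW : ¬ cm E (zpowers z) U ≤ W := fun e => h.not_Dz hn hne fun _ hd => h.DW hne hd (e hd)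

theorem φD (hg : g ∈ U) (he : e ∈ E) : ⟪g, e⟫ ∈ cm E (zpowers z) U := by
  obtain ⟨a, ha, h1⟩ := exists_cm h.two h.EU hn h.nD fun e => h.not_WD hne (h.WE.trans e)
  exact (h.le32 (R := cm E (cm E (zpowers z) U) U) h.zD
    (fun d hd => ⟨hd.1, normG _ hd, fun g hg => h.zle h.zD (hd.2.2 g hg)⟩) cm_le (h.D8 hn hne)
    (norm_cm h.xE h.xD h.xU) (fun e => h1 (e ha)) he).2.2 g hg

theorem WD (he : e ∈ E) : ∃ w ∈ W, ∃ d ∈ cm E (zpowers z) U, w * d = e :=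
  (mem_sup_norm_l (cm_le.trans h.EW)).1 (h.le32 h.zW le_sup_left (sup_le h.WE cm_le) h.W8
    (mem_norm_of_cj_le (by rw [cj_sup, cj_eq_of_mem_norm h.xW, cj_eq_of_mem_norm h.xD]))
    (fun e => h.not_DW hn hne (le_sup_right.trans e)) he)

theorem φ_comm (hg : g ∈ U) (hw : w ∈ W) (hd : d ∈ cm E (zpowers z) U) : d * ⟪g, w⟫ = ⟪g, w⟫ * d := by
  have h1 := h.cmE hd.1 (h.WE hw)
  have h2 := (h.φD hn hne hg (h.WE hw)).1
  have h3 := conj_mem_of_mem_norm (hn hg) (h.WE hw)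
  have e1 : g * ⟪w, d⟫ * g⁻¹ = g * w * g⁻¹ * ⟪g, d⟫ * (g * w * g⁻¹)⁻¹ *
      (⟪g, w⟫ * ⟪w, d⟫ * ⟪g, w⟫⁻¹ * ⟪⟪g, w⟫, d⟫) * ⟪g, d⟫⁻¹ := by group
  rw [cz (h.Uz hg) h1, cz (h.Ez h3) (hd.2.2 g hg), cz (h.Ez h2) h1,
    cz (h.Ez (h.zle h.zE (hd.2.2 g hg))) (mul_mem h1 (h.cmE hd.1 h2)), left_eq_mul, mul_inv_eq_one,
    mul_inv_eq_iff_eq_mul] at e1
  exact e1.symm

theorem Dc (ha : a ∈ cm E (zpowers z) U) (hb : b ∈ cm E (zpowers z) U) : a * b = b * a := by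
  obtain ⟨g, hg, h1⟩ := SetLike.not_le_iff_exists.1 hne
  obtain ⟨w, hw, h2⟩ : ∃ w ∈ W, ⟪g, w⟫ ∉ zpowers z := by
    by_contra! e
    exact h1 (h.K0 hg fun w hw => h.zle h.zW (e w hw))
  exact mem_cent_iff.1 (h.le8 (R := cm E (zpowers z) U ⊓ 𝒞(cm E (zpowers z) U))
    ⟨h.zD, sub_cent1.1 (cm_le.trans h.Ez)⟩ inf_le_left cm_le (h.D8 hn hne)
    (mem_norm_of_cj_le (by rw [cj_inf, cj_cent, cj_eq_of_mem_norm h.xD]))
    (fun e => h2 (e ⟨h.φD hn hne hg (h.WE hw), mem_cent_iff.2 fun d => h.φ_comm hn hne hg hw⟩)) hb).2 a ha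

theorem D2 (hd : d ∈ cm E (zpowers z) U) : d * d = 1 := by
  have key : ∀ d ∈ cm E (zpowers z) U, d * d = z → ⟪x, d⟫ * ⟪x, d⟫ = 1 := fun d hd e => by
    have := h.Dc hn hne (inv_mem hd) (conj_mem_of_mem_norm h.xD hd)
    calc _ = x * d * x⁻¹ * (d⁻¹ * (x * d * x⁻¹)) * d⁻¹ := by group
      _ = x * (d * d) * x⁻¹ * (d * d)⁻¹ := by rw [this]; group
      _ = 1 := by rw [e, mem_cent1.1 h.xz]; group
  refine (h.mz.1 (h.sqE hd.1)).resolve_right fun e => ?_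
  have h0 : d ∉ zpowers z := fun e' => by
    rcases h.mz.1 e' with rfl | rfl
    · exact h.z1 (by simpa using e.symm)
    · exact h.z1 (e.symm.trans h.zz)
  have hc := mul_mem (conj_mem_of_mem_norm h.xD hd) (inv_mem hd)
  let R : Subgroup G :=
    { carrier := {a | a ∈ cm E (zpowers z) U ∧ a * a = 1}
      one_mem' := ⟨one_mem _, mul_one _⟩
      mul_mem' := fun {a b} ha hb => ⟨mul_mem ha.1 hb.1, by
        rw [mul_assoc, ← mul_assoc b, ← h.Dc hn hne ha.1 hb.1, mul_assoc, hb.2, mul_one, ha.2]⟩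
      inv_mem' := fun {a} ha => ⟨inv_mem ha.1, by rw [← mul_inv_rev, ha.2, inv_one]⟩ }
  have := (h.le8 (R := R) ⟨h.zD, h.zz⟩ (fun _ e => e.1) cm_le (h.D8 hn hne)
    (mem_norm_of_cj_le (cj_le_iff.2 fun a ha => ⟨conj_mem_of_mem_norm h.xD ha.1, by rw [conj_mul, ha.2]; simp⟩))
    (fun e' => h0 (h.fixz hd.1 (e' ⟨hc, key d hd e⟩))) hd).2
  exact h.z1 (e.symm.trans this)

omit hne hn in
theorem comm_sq (ha : a * a = 1) (hb : b * b = 1) (hab : a * b * (a * b) = 1) : a * b = b * a := by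
  rw [← inv_eq_of_mul_eq_one_right hab, mul_inv_rev, inv_eq_of_mul_eq_one_right ha, inv_eq_of_mul_eq_one_right hb]

theorem φw (hg : g ∈ U) (hw : w ∈ W) : ⟪g, w⟫ * w = w * ⟪g, w⟫ :=
  h.comm_sq (h.D2 hn hne (h.φD hn hne hg (h.WE hw))) (h.W2 w hw)
    (by rw [inv_mul_cancel_right, conj_mul, h.W2 w hw]; simp)

theorem CD4 (hw : w ∈ W) (w1 : w ∉ zpowers z) (ha : a ∈ cm E (zpowers z) U) (hb : b ∈ cm E (zpowers z) U)
    (a1 : a ∉ zpowers z) (b1 : b ∉ zpowers z) (ac : a * w = w * a) (bc : b * w = w * b) : b = a ∨ b = z * a := by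
  have h1 : ¬ cm E (zpowers z) U ≤ cm E (zpowers z) U ⊓ 𝒞[w] := fun e => h.not_DW hn hne ((centsC.1
    ((h.le8 (R := W ⊓ 𝒞(cm E (zpowers z) U)) ⟨h.zW, sub_cent1.1 (cm_le.trans h.Ez)⟩ inf_le_left h.WE h.W8
      (mem_norm_of_cj_le (by rw [cj_inf, cj_cent, cj_eq_of_mem_norm h.xD, cj_eq_of_mem_norm h.xW]))
      fun e' => w1 (e' ⟨hw, sub_cent1.1 (e.trans inf_le_right)⟩)).trans inf_le_right)).trans h.cW)
  have h2 := two_mul_card_le inf_le_left h1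
  rw [h.D8 hn hne] at h2
  rw [h.mz, not_or] at a1 b1
  have := four_cases (W := cm E (zpowers z) U ⊓ 𝒞[w]) (by omega) ⟨h.zD, mem_cent1.2 (h.Wc h.zW hw)⟩
    ⟨ha, mem_cent1.2 ac⟩ h.zz h.z1 a1.1 a1.2 ⟨hb, mem_cent1.2 bc⟩
  tauto

theorem K1 (hg : g ∈ U) (hw : w ∈ W) (w1 : w ∉ zpowers z) (hc : ⟪g, w⟫ ∈ zpowers z) : g ∈ E := by
  refine h.K0 hg fun u hu => ?_
  have hd := h.φD hn hne hg (h.WE hu)
  by_contra h1
  have d1 : ⟪g, u⟫ ∉ zpowers z := fun e => h1 (h.zle h.zW e)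
  have u1 : u ∉ zpowers z := fun e => d1 (by rw [cz (h.Uz hg) e]; simp)
  -- `⟪g, u⟫` commutes with `u` and with `u w`
  have c1 := h.φw hn hne hg hu
  have c2 := h.φw hn hne hg (mul_mem hu hw)
  have e1 : ⟪g, (u * w)⟫ = ⟪g, u⟫ * (u * ⟪g, w⟫ * u⁻¹) := by group
  rw [e1, cz (h.Ez (h.WE hu)) hc] at c2
  have e2 := cz (h.Ez (h.WE (mul_mem hu hw))) hc
  have c3 : ⟪g, u⟫ * w = w * ⟪g, u⟫ := by
    generalize ⟪g, u⟫ = d at c1 c2
    generalize ⟪g, w⟫ = ζ at c2 e2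
    rw [mul_inv_eq_iff_eq_mul] at e2
    rw [mul_assoc d, ← e2, ← mul_assoc, ← mul_assoc, ← mul_assoc (u * w), mul_left_inj, c1, mul_assoc,
      mul_assoc, mul_right_inj] at c2
    exact c2
  have h4 := two_mul_card_le (inf_le_left (a := W) (b := 𝒞[⟪g, u⟫]))
    fun e => h1 (h.cW (sub_cent1.1 (e.trans inf_le_right)))
  rw [h.W8] at h4
  rw [h.mz, not_or] at w1
  rcases four_cases (W := W ⊓ 𝒞[⟪g, u⟫]) (by omega) ⟨h.zW, cent1C.1 (h.Ez hd.1)⟩ ⟨hw, mem_cent1.2 c3.symm⟩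
    h.zz h.z1 w1.1 w1.2 ⟨hu, mem_cent1.2 c1.symm⟩ with e | e | e | e
  · exact u1 (e ▸ one_mem _)
  · exact u1 (e ▸ mem_zpowers z)
  · exact d1 (e ▸ hc)
  · refine d1 ?_
    have : ⟪g, (z * w)⟫ = ⟪g, z⟫ * (z * ⟪g, w⟫ * z⁻¹) := by group
    rw [e, this, cz (h.Uz hg) (mem_zpowers z), cz (cent1id z) hc]
    simpa using hc

omit hn hne in
theorem exists_w : ∃ w ∈ W, w ∉ zpowers z := SetLike.not_le_iff_exists.1 h.not_Wz

theorem idx2 : E.relIndex U = 2 := by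
  refine le_antisymm (relIndex_le_two fun a ha b hb a1 b1 => ?_) (two_le_relIndex hne)
  obtain ⟨w, hw, w1⟩ := h.exists_w
  have hd := h.φD hn hne ha (h.WE hw)
  refine h.K1 hn hne (mul_mem (inv_mem ha) hb) hw w1 ?_
  have e1 : ⟪(a⁻¹ * b), w⟫ = a⁻¹ * (⟪b, w⟫ * ⟪a, w⟫⁻¹) * a⁻¹⁻¹ := by group
  have e2 : ⟪b, w⟫ * ⟪a, w⟫⁻¹ ∈ zpowers z := by
    rcases h.CD4 hn hne hw w1 hd (h.φD hn hne hb (h.WE hw)) (fun e => a1 (h.K1 hn hne ha hw w1 e))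
      (fun e => b1 (h.K1 hn hne hb hw w1 e)) (h.φw hn hne ha hw) (h.φw hn hne hb hw) with e | e
    · rw [e, mul_inv_cancel]; exact one_mem _
    · rw [e, mul_inv_cancel_right]; exact mem_zpowers z
  rwa [e1, cz (h.Uz (inv_mem ha)) e2]

theorem U64 : Nat.card U = 64 := by rw [← Lagrange h.EU, h.idx2 hn hne, h.E32]

omit hn hne in
theorem le_norm : U ≤ 𝒩(E) := by
  by_contra h0
  have h' := h.restrict
  obtain ⟨n, hn, n1, -, n2⟩ := exists_norm_sq h.two h.EU fun e => h0 (e.trans (normG E))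
  have hne : ¬ U ⊓ 𝒩(E) ≤ E := fun e => n1 (e ⟨hn, mem_norm_of_cj_le (cj_le_iff.2 n2)⟩)
  obtain ⟨g, hg, g1, -, g2⟩ := exists_norm_sq h.two (inf_le_left (b := 𝒩(E))) fun e => h0 (e.trans inf_le_right)
  refine g1 ⟨hg, mem_norm_of_cj_le fun u hu => ?_⟩
  have hE : cj g E ≤ U ⊓ 𝒩(E) := cj_le_iff.2 fun e he => g2 e (h'.EU he)
  have h1 : (cj g E).relIndex W ≤ 2 := by
    have e1 := Lagrange hE
    rw [h'.U64 inf_le_right hne, card_cj, h.E32] at e1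
    exact (Sect.relIndex_mono_right _ (h.WE.trans h'.EU)).trans (by omega)
  have h2 := LagrangeI (cj g E) W
  obtain ⟨w, hw, w1⟩ := exists_notMem (K := zpowers z) (H := cj g E ⊓ W) (by
    rw [h.W8] at h2
    rw [h.z2]
    by_contra! e
    have := Nat.mul_le_mul e h1
    omega)
  refine h'.K1 inf_le_right hne (hE hu) hw.2 w1 ?_
  have h3 := h.cmE (mem_cj.1 hw.1) (mem_cj.1 hu)
  rw [← cz (h.Uz hg) h3] at h3
  convert h3 using 1
  group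

theorem exists_v : ∃ v ∈ U, v * x = x * v ∧ v ∉ E := by
  by_contra! e
  have := h.md U h.xU
  rw [h.inf_eq (h.EU h.zE) fun a ha => e a ha.1 (mem_cent1.1 ha.2), h.U64 hn hne, h.z2] at this
  exact absurd this (by decide)

theorem ED (he : e ∈ E) (hc : e ∈ 𝒞(cm E (zpowers z) U)) : e ∈ cm E (zpowers z) U := by
  by_contra h1
  have := h.le32 (R := E ⊓ 𝒞(cm E (zpowers z) U)) h.zD
    (le_inf cm_le fun a ha => mem_cent_iff.2 fun b hb => h.Dc hn hne hb ha) inf_le_left (h.D8 hn hne)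
    (mem_norm_of_cj_le (by rw [cj_inf, cj_cent, cj_eq_of_mem_norm h.xD, cj_eq_of_mem_norm h.xE]))
    fun e => h1 (e ⟨he, hc⟩)
  exact h.not_DW hn hne ((centsC.1 (h.WE.trans (this.trans inf_le_right))).trans h.cW)

variable (vU : v ∈ U) (vx : v * x = x * v) (vE : v ∉ E) (vv : v * v = 1)
include vU vx vE

omit vE in
theorem Dv : cm E (zpowers z) U ≤ 𝒞[v] := by
  have h1 : 𝒞[v].relIndex (cm E (zpowers z) U) ≤ 2 := relIndex_le_two fun a ha b hb a1 b1 => by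
    have k : ∀ c ∈ cm E (zpowers z) U, c ∉ 𝒞[v] → v * c * v⁻¹ = z * c := fun c hc c1 => by
      rcases h.mz.1 (hc.2.2 v vU) with e | e
      · rw [mul_inv_eq_one, mul_inv_eq_iff_eq_mul] at e
        exact (c1 (mem_cent1.2 e.symm)).elim
      · rw [← e]; group
    refine mem_cent1.2 (mul_inv_eq_iff_eq_mul.1 ?_).symm
    calc _ = (v * a * v⁻¹)⁻¹ * (v * b * v⁻¹) := by group
      _ = _ := by rw [k a ha a1, k b hb b1]; group
  have h2 := LagrangeI 𝒞[v] (cm E (zpowers z) U)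
  refine (h.le8 (R := 𝒞[v] ⊓ cm E (zpowers z) U) ⟨cent1C.1 (h.Uz vU), h.zD⟩ inf_le_right cm_le (h.D8 hn hne)
    (mem_norm_of_cj_le (by rw [cj_inf, cj_cent1, cj_eq_of_mem_norm h.xD, ← vx, mul_inv_cancel_right]))
    fun e => ?_).trans inf_le_left
  have := Nat.mul_le_mul (BG.card_le_of_le e) h1
  rw [h2, h.D8 hn hne, h.z2] at this
  omega

theorem Ev (he : e ∈ E) (hc : e ∈ 𝒞[v]) : e ∈ cm E (zpowers z) U := by
  by_contra h1
  have := h.le32 (R := E ⊓ 𝒞[v]) h.zD (le_inf cm_le (h.Dv hn hne vU vx)) inf_le_left (h.D8 hn hne)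
    (mem_norm_of_cj_le (by rw [cj_inf, cj_cent1, cj_eq_of_mem_norm h.xE, ← vx, mul_inv_cancel_right]))
    fun e => h1 (e ⟨he, hc⟩)
  exact vE (h.WE (h.cW (sub_cent1.1 (h.WE.trans (this.trans inf_le_right)))))

theorem vB : v ∈ U ⊓ 𝒞(cm E (zpowers z) U) := ⟨vU, sub_cent1.1 (h.Dv hn hne vU vx)⟩

omit vU vx vE in
theorem DB : cm E (zpowers z) U ≤ U ⊓ 𝒞(cm E (zpowers z) U) :=
  le_inf (cm_le.trans h.EU) fun _ ha => mem_cent_iff.2 fun _ hb => h.Dc hn hne hb ha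

omit vx in
theorem or_v (hg : g ∈ U) : g ∈ E ∨ g * v ∈ E :=
  or_iff_not_imp_left.2 fun e => mul_mem_of_le_two (h.idx2 hn hne).le hg vU e vE

theorem B_eq : U ⊓ 𝒞(cm E (zpowers z) U) = U ⊓ 𝒞[v] := by
  refine le_antisymm (fun b hb => ?_) fun b hb => ?_
  · refine ⟨hb.1, ?_⟩
    rcases h.or_v hn hne vU vE hb.1 with e | e
    · exact h.Dv hn hne vU vx (h.ED hn hne e hb.2)
    · exact (mul_mem_cancel_right (cent1id v)).1
        (h.Dv hn hne vU vx (h.ED hn hne e (mul_mem hb (h.vB hn hne vU vx vE)).2))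
  · rcases h.or_v hn hne vU vE hb.1 with e | e
    · exact h.DB hn hne (h.Ev hn hne vU vx vE e hb.2)
    · exact (mul_mem_cancel_right (h.vB hn hne vU vx vE)).1
        (h.DB hn hne (h.Ev hn hne vU vx vE e (mul_mem hb.2 (cent1id v))))

theorem B16 : Nat.card ↥(U ⊓ 𝒞(cm E (zpowers z) U)) = 16 := by
  have h1 := two_mul_card_le (h.DB hn hne) fun e => vE (e (h.vB hn hne vU vx vE)).1
  have h2 := LagrangeI E (U ⊓ 𝒞(cm E (zpowers z) U))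
  have h3 := (Sect.relIndex_mono_right E (inf_le_left (a := U) (b := 𝒞(cm E (zpowers z) U)))).trans
    (h.idx2 hn hne).le
  have h4 := BG.card_le_of_le (H := E ⊓ (U ⊓ 𝒞(cm E (zpowers z) U))) fun a ha => h.ED hn hne ha.1 ha.2.2
  have := Nat.mul_le_mul h4 h3
  rw [h.D8 hn hne] at h1 this
  omega

include vv in
omit vx in
theorem invol (he : e ∈ E) (ee : e * e = 1) (eW : e ∉ W) :
    (e ∈ cm E (zpowers z) U ∧ e ∉ zpowers z) ∨ ∃ w ∈ W, w ≠ 1 ∧ e = v * w * v⁻¹ := by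
  obtain ⟨w, hw, d, hd, rfl⟩ := h.WD hn hne he
  by_cases w1 : w ∈ zpowers z
  · exact .inl ⟨mul_mem (h.zle h.zD w1) hd, fun e => eW (h.zle h.zW e)⟩
  have c := h.comm_sq (h.W2 w hw) (h.D2 hn hne hd) ee
  have e0 : v * w * v⁻¹ = ⟪v, w⟫ * w := by group
  rcases h.CD4 hn hne hw w1 (h.φD hn hne vU (h.WE hw)) hd (fun e => vE (h.K1 hn hne vU hw w1 e))
    (fun e => eW (mul_mem hw (h.zle h.zW e))) (h.φw hn hne vU hw) c.symm with e | e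
  · exact .inr ⟨w, hw, fun e => w1 (e ▸ one_mem _), by rw [c, e0, e]⟩
  · refine .inr ⟨z * w, mul_mem h.zW hw, fun e => w1 ?_, ?_⟩
    · rw [eq_inv_of_mul_eq_one_right e]; exact inv_mem (mem_zpowers z)
    · rw [c, e, ← mul_assoc v, mem_cent1.1 (h.Uz vU)]; group

end Cf

end CfsgLib.C3.Low
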